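import Cfsg.Agent.H997.PF.Rows
import Cfsg.Agent.H901.SaxSpRow
import Cfsg.Agent.H124.LinCyc

/-!
# `S3522-FAM8`: the family of the groups `O^-_8(q)` in `PSp_8(q)`, `q` even (helper327)
-/

set_option autoImplicit false

namespace Cfsg.Agent.H327.PF

open Module Cfsg Cfsg.Agent.H884.El Cfsg.Agent.H938.Sax Cfsg.Agent.H997.PF
open Cfsg.Agent.H951 (fx cm Inv)
open Cfsg.Agent.ClassicalGeometry.SympBasic
open Cfsg.Agent.H262.El (pre)
open scoped MatrixGroups Matrix

universe u v

section Quad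

variable {F : Type u} [Field F] [Finite F] [CharP F 2] {V : Type v} [AddCommGroup V] [Module F V]
  [FiniteDimensional F V]

/-- two quadratic forms with the same polar form which are invariant under an irreducible linear map are equal -/
theorem quad_eq {Q Q' : QuadraticForm F V} (hpol : ∀ u v, QuadraticMap.polar Q u v = QuadraticMap.polar Q' u v)
    {x : Module.End F V} (hQ : ∀ v, Q (x v) = Q v) (hQ' : ∀ v, Q' (x v) = Q' v)
    (hirr : ∀ W : Submodule F V, Inv x W → W = ⊥ ∨ W = ⊤) (hd : 2 ≤ finrank F V) (v : V) : Q v = Q' v := by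
  let W : Submodule F V :=
    { carrier := {v | Q v = Q' v}
      zero_mem' := by simp
      add_mem' := by
        intro a b ha hb
        have h1 := hpol a b
        simp only [QuadraticMap.polar] at h1
        simp only [Set.mem_setOf_eq] at ha hb ⊢
        rw [ha, hb] at h1
        linear_combination h1
      smul_mem' := by
        intro c a ha
        simp only [Set.mem_setOf_eq] at ha ⊢
        rw [QuadraticMap.map_smul, QuadraticMap.map_smul, ha] }
  have hW : Inv x W := fun w hw => by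
    change Q (x w) = Q' (x w)
    rw [hQ, hQ']
    exact hw
  rcases hirr W hW with h | h
  · exfalso
    have hnt : Nontrivial V := Module.nontrivial_of_finrank_pos (R := F) (by omega)
    obtain ⟨u, hu⟩ := exists_ne (0 : V)
    have h1 : Submodule.span F {u} ≠ ⊤ := by
      intro h2
      have h3 := finrank_span_singleton (K := F) hu
      rw [h2, finrank_top] at h3
      omega
    obtain ⟨w, hw⟩ : ∃ w, w ∉ Submodule.span F {u} := by
      by_contra hcon
      push Not at hcon
      exact h1 (Submodule.eq_top_iff'.2 hcon)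
    have hDu : Q u - Q' u ≠ 0 := by
      intro h2
      have h3 : u ∈ W := sub_eq_zero.1 h2
      rw [h, Submodule.mem_bot] at h3
      exact hu h3
    obtain ⟨c, hc⟩ := FiniteField.isSquare_of_char_two (F := F) (ringChar.eq F 2) ((Q w - Q' w) / (Q u - Q' u))
    have hc2 : c * c * (Q u - Q' u) = Q w - Q' w := by
      rw [← hc, div_mul_cancel₀ _ hDu]
    have h2 : w + c • u ∈ W := by
      change Q (w + c • u) = Q' (w + c • u)
      have h3 := hpol w (c • u)
      simp only [QuadraticMap.polar, QuadraticMap.map_smul, smul_eq_mul] at h3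
      have h4 : (Q w - Q' w) + (Q w - Q' w) = 0 := CharTwo.add_self_eq_zero _
      linear_combination h3 + hc2 + h4
    rw [h, Submodule.mem_bot] at h2
    apply hw
    rw [eq_neg_of_add_eq_zero_left h2]
    exact Submodule.neg_mem _ (Submodule.smul_mem _ _ (Submodule.mem_span_singleton_self u))
  · have h1 : v ∈ W := by rw [h]; trivial
    exact h1

end Quad

section Sp

variable {F : Type} [Field F] [Fintype F] {m r d : ℕ}

/-- `K` preserves `Q` -/
def Pres (K : Subgroup (PSp m F)) (Q : QuadraticForm F (Fin m ⊕ Fin m → F)) : Prop :=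
  ∀ A : Matrix.symplecticGroup (Fin m) F, (QuotientGroup.mk A : PSp m F) ∈ K →
    ∀ v, Q ((A : Matrix (Fin m ⊕ Fin m) (Fin m ⊕ Fin m) F) *ᵥ v) = Q v

omit [Fintype F] in
theorem pres_iff {K : Subgroup (PSp m F)} {Q : QuadraticForm F (Fin m ⊕ Fin m → F)} :
    Pres K Q ↔ pre K ≤ isometryGroup F (⇑Q) := by
  constructor
  · rintro h _ ⟨A, hA, rfl⟩
    rw [H925.mem_iso_iff]
    exact h A hA
  · intro h A hA
    exact H925.mem_iso_iff.1 (h (H262.El.mem_pre.2 hA))

/-- the stabilizer of `Q` -/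
noncomputable def stabT (Q : QuadraticForm F (Fin m ⊕ Fin m → F)) : Subgroup (PSp m F) :=
  ((isometryGroup F (⇑Q)).comap (Cfsg.Agent.H876.spToGL m F)).map
    (QuotientGroup.mk' (Subgroup.center (Matrix.symplecticGroup (Fin m) F)))

omit [Fintype F] in
theorem le_stabT {K : Subgroup (PSp m F)} {Q : QuadraticForm F (Fin m ⊕ Fin m → F)} (h : Pres K Q) :
    K ≤ stabT Q := by
  intro x hx
  obtain ⟨A, rfl⟩ := QuotientGroup.mk'_surjective (Subgroup.center (Matrix.symplecticGroup (Fin m) F)) x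
  exact ⟨A, pres_iff.1 h (H262.El.mem_pre.2 hx), rfl⟩

omit [Fintype F] in
theorem pres_stabT {K : Subgroup (PSp m F)} {Q : QuadraticForm F (Fin m ⊕ Fin m → F)} (h : Pres K Q) :
    Pres (stabT Q) Q := by
  rintro A ⟨B, hB, hBA⟩ v
  have h1 : (QuotientGroup.mk (B⁻¹ * A) : PSp m F) ∈ K := by
    have h2 : (QuotientGroup.mk (B⁻¹ * A) : PSp m F) = 1 :=
      (QuotientGroup.eq_one_iff _).2 (QuotientGroup.eq.1 hBA)
    rw [h2]
    exact K.one_mem
  have h2 := h _ h1 v
  have h3 : ∀ w, Q ((B : Matrix (Fin m ⊕ Fin m) (Fin m ⊕ Fin m) F) *ᵥ w) = Q w := H925.mem_iso_iff.1 hB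
  rw [← h2, ← h3 (((B⁻¹ * A : Matrix.symplecticGroup (Fin m) F) :
    Matrix (Fin m ⊕ Fin m) (Fin m ⊕ Fin m) F) *ᵥ v), Matrix.mulVec_mulVec]
  congr 2
  have h4 : A = B * (B⁻¹ * A) := by group
  exact congrArg Subtype.val h4

omit [Fintype F] in
/-- the symplectic group does not preserve a quadratic form -/
theorem not_pres_top (hm : 2 ≤ m) {Q : QuadraticForm F (Fin m ⊕ Fin m → F)}
    (hpol : ∀ u v, QuadraticMap.polar Q u v = sympForm m F u v) {K : Subgroup (PSp m F)} (h : Pres K Q) :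
    K ≠ ⊤ := by
  rintro rfl
  have h1 : ∀ x y : Fin m ⊕ Fin m → F, x ≠ 0 → y ≠ 0 → Q x = Q y := by
    intro x y hx hy
    obtain ⟨A, -, hA⟩ := exists_transvGroup_mulVec_eq hx hy
    rw [← hA]
    exact (h A (Subgroup.mem_top _) x).symm
  set a : Fin m ⊕ Fin m → F := Pi.single (Sum.inl ⟨0, by omega⟩) 1 with ha
  set b : Fin m ⊕ Fin m → F := Pi.single (Sum.inr ⟨0, by omega⟩) 1 with hb
  set c : Fin m ⊕ Fin m → F := Pi.single (Sum.inl ⟨1, by omega⟩) 1 with hc
  have ha0 : a ≠ 0 := by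
    intro h2
    have := congrFun h2 (Sum.inl ⟨0, by omega⟩)
    rw [ha, Pi.single_eq_same] at this
    exact one_ne_zero this
  have hb0 : b ≠ 0 := by
    intro h2
    have := congrFun h2 (Sum.inr ⟨0, by omega⟩)
    rw [hb, Pi.single_eq_same] at this
    exact one_ne_zero this
  have hc0 : c ≠ 0 := by
    intro h2
    have := congrFun h2 (Sum.inl ⟨1, by omega⟩)
    rw [hc, Pi.single_eq_same] at this
    exact one_ne_zero this
  have hba : sympForm m F b a = 1 := by
    rw [hb, sympForm_single_inr_left, ha, Pi.single_eq_same]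
  have hab0 : b + a ≠ 0 := by
    intro h2
    have := congrFun h2 (Sum.inl ⟨0, by omega⟩)
    rw [Pi.add_apply, hb, ha, Pi.single_eq_same, Pi.single_eq_of_ne (by simp)] at this
    simp at this
  have hac0 : a + c ≠ 0 := by
    intro h2
    have := congrFun h2 (Sum.inl ⟨0, by omega⟩)
    rw [Pi.add_apply, hc, ha, Pi.single_eq_same, Pi.single_eq_of_ne (by simp)] at this
    simp at this
  have hac : sympForm m F a c = 0 := by
    rw [ha, sympForm_single_inl_left, hc, Pi.single_eq_of_ne (by simp)]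
    simp
  have h2 := hpol b a
  have h3 := hpol a c
  simp only [QuadraticMap.polar] at h2 h3
  rw [hba, h1 _ a hab0 ha0, h1 b a hb0 ha0] at h2
  rw [hac, h1 _ a hac0 ha0, h1 c a hc0 ha0] at h3
  rw [h3] at h2
  exact zero_ne_one h2

omit [Fintype F] in
theorem pres_conj {K : Subgroup (PSp m F)} {Q : QuadraticForm F (Fin m ⊕ Fin m → F)} (h : Pres K Q)
    (A : Matrix.symplecticGroup (Fin m) F) :
    Pres (K.map (MulAut.conj (QuotientGroup.mk A : PSp m F)).toMonoidHom)
      (Q.comp (Matrix.toLin' ((A⁻¹ : Matrix.symplecticGroup (Fin m) F) :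
        Matrix (Fin m ⊕ Fin m) (Fin m ⊕ Fin m) F))) := by
  rintro B ⟨x, hx, hxB⟩ v
  obtain ⟨C, rfl⟩ := QuotientGroup.mk'_surjective (Subgroup.center (Matrix.symplecticGroup (Fin m) F)) x
  have h1 : (QuotientGroup.mk (A⁻¹ * B * A) : PSp m F) ∈ K := by
    have h2 : (QuotientGroup.mk (A⁻¹ * B * A) : PSp m F) = QuotientGroup.mk C := by
      have h3 : (QuotientGroup.mk A : PSp m F) * QuotientGroup.mk C * (QuotientGroup.mk A)⁻¹ =
        QuotientGroup.mk B := hxB
      rw [QuotientGroup.mk_mul, QuotientGroup.mk_mul, ← h3, QuotientGroup.mk_inv]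
      group
    rw [h2]
    exact hx
  rw [QuadraticMap.comp_apply, QuadraticMap.comp_apply, Matrix.toLin'_apply, Matrix.toLin'_apply,
    ← h _ h1 (((A⁻¹ : Matrix.symplecticGroup (Fin m) F) : Matrix (Fin m ⊕ Fin m) (Fin m ⊕ Fin m) F) *ᵥ v),
    Matrix.mulVec_mulVec, Matrix.mulVec_mulVec]
  congr 2
  have h4 : A⁻¹ * B = A⁻¹ * B * A * A⁻¹ := by group
  exact congrArg Subtype.val h4

variable (m F r) in
/-- the stabilizers of quadratic forms with polar form `sympForm` whose order is divisible by `r` -/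
def famSp : Set (Subgroup (PSp m F)) :=
  {M | M ≠ ⊤ ∧ r ∣ Nat.card M ∧ ∃ Q : QuadraticForm F (Fin m ⊕ Fin m → F),
    (∀ u v, QuadraticMap.polar Q u v = sympForm m F u v) ∧ Pres M Q ∧
      ∀ K : Subgroup (PSp m F), Pres K Q → K ≤ M}

theorem isFam_sp (hm : 2 ≤ m) [CharP F 2] (hr : PP (Nat.card F) (2 * m) r)
    (hres : ∀ K : Subgroup (PSp m F), K ≠ ⊤ → Kill (PSp m F) d K ∨
      ∃ Q : QuadraticForm F (Fin m ⊕ Fin m → F), (∀ u v, QuadraticMap.polar Q u v = sympForm m F u v) ∧
        pre K ≤ isometryGroup F (⇑Q)) : IsFam (PSp m F) d (famSp F m r) := by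
  have hq := one_lt_q F
  have hlt := hr.lt (by omega)
  have hr2 : r ≠ 2 := by omega
  have := Fact.mk hr.prime
  have hfinP : Finite (PSp m F) := inferInstance
  have hrT : r ∣ Nat.card (PSp m F) :=
    Cfsg.Agent.H901.SaxSp.dvd_card_psp hr hr2 (i := m) (by omega) le_rfl dvd_rfl
  refine IsFam.of_prime hr.prime hrT ?_ _ (fun M hM => hM.1) ?_ (fun M hM => hM.2.1) ?_ ?_
  · intro P hP
    obtain ⟨S, hS⟩ := hP.exists_le_sylow
    have hScyc : IsCyclic S := H124.LinCyc.isCyclic_sylow_of_gl (F := F) (ι := Fin m ⊕ Fin m) (e := 2 * m) hr2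
      (by omega) (fun j => by rw [← Nat.card_eq_fintype_card]; exact hr.dvd_iff Finite.one_lt_card.le j)
      (by rw [Fintype.card_sum, Fintype.card_fin]; omega)
      (Cfsg.Agent.H876.spToGL m F) H262.El.spToGL_injective
      (QuotientGroup.mk' (Subgroup.center (Matrix.symplecticGroup (Fin m) F))) (QuotientGroup.mk'_surjective _) S
    exact isCyclic_of_injective (Subgroup.inclusion hS) (Subgroup.inclusion_injective hS)
  · rintro M ⟨hM1, hM2, Q, hpol, hMQ, hmax⟩ t
    obtain ⟨A, rfl⟩ := QuotientGroup.mk'_surjective (Subgroup.center (Matrix.symplecticGroup (Fin m) F)) t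
    have hpres := pres_conj hMQ A
    have hpol' : ∀ u v, QuadraticMap.polar (Q.comp (Matrix.toLin' ((A⁻¹ : Matrix.symplecticGroup (Fin m) F) :
        Matrix (Fin m ⊕ Fin m) (Fin m ⊕ Fin m) F))) u v = sympForm m F u v := by
      intro u v
      have h1 := hpol (((A⁻¹ : Matrix.symplecticGroup (Fin m) F) :
        Matrix (Fin m ⊕ Fin m) (Fin m ⊕ Fin m) F) *ᵥ u) (((A⁻¹ : Matrix.symplecticGroup (Fin m) F) :
        Matrix (Fin m ⊕ Fin m) (Fin m ⊕ Fin m) F) *ᵥ v)
      rw [sympForm_mulVec (A⁻¹).2, QuadraticMap.polar, ← Matrix.mulVec_add] at h1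
      rw [← h1]
      simp only [QuadraticMap.polar, QuadraticMap.comp_apply, Matrix.toLin'_apply]
    refine ⟨not_pres_top hm hpol' hpres, ?_, _, hpol', hpres, ?_⟩
    · rwa [Subgroup.card_map_of_injective (MulAut.conj _).injective]
    · intro K hK
      have h1 := pres_conj hK A⁻¹
      have h2 : (Q.comp (Matrix.toLin' ((A⁻¹ : Matrix.symplecticGroup (Fin m) F) :
          Matrix (Fin m ⊕ Fin m) (Fin m ⊕ Fin m) F))).comp
          (Matrix.toLin' (((A⁻¹)⁻¹ : Matrix.symplecticGroup (Fin m) F) :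
          Matrix (Fin m ⊕ Fin m) (Fin m ⊕ Fin m) F)) = Q := by
        ext v
        rw [QuadraticMap.comp_apply, QuadraticMap.comp_apply, Matrix.toLin'_apply, Matrix.toLin'_apply,
          Matrix.mulVec_mulVec]
        congr 1
        have h3 : A⁻¹ * (A⁻¹)⁻¹ = 1 := mul_inv_cancel _
        have h4 := congrArg (fun B : Matrix.symplecticGroup (Fin m) F =>
          (B : Matrix (Fin m ⊕ Fin m) (Fin m ⊕ Fin m) F)) h3
        change ((A⁻¹ : Matrix.symplecticGroup (Fin m) F) : Matrix (Fin m ⊕ Fin m) (Fin m ⊕ Fin m) F) *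
          (((A⁻¹)⁻¹ : Matrix.symplecticGroup (Fin m) F) : Matrix (Fin m ⊕ Fin m) (Fin m ⊕ Fin m) F) =
          1 at h4
        rw [h4, Matrix.one_mulVec]
      rw [h2] at h1
      have h3 := hmax _ h1
      intro x hx
      refine ⟨(QuotientGroup.mk A : PSp m F)⁻¹ * x * QuotientGroup.mk A, h3 ⟨x, hx, ?_⟩, ?_⟩
      · change (QuotientGroup.mk A⁻¹ : PSp m F) * x * (QuotientGroup.mk A⁻¹ : PSp m F)⁻¹ = _
        rw [QuotientGroup.mk_inv, inv_inv]
      · change (QuotientGroup.mk A : PSp m F) * ((QuotientGroup.mk A : PSp m F)⁻¹ * x * QuotientGroup.mk A) *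
          (QuotientGroup.mk A : PSp m F)⁻¹ = x
        group
  · rintro x hx M ⟨-, -, Q, hpol, hMQ, hmax⟩ M' ⟨-, -, Q', hpol', hMQ', hmax'⟩ hxM hxM'
    have hK : r ∣ Nat.card (pre (Subgroup.zpowers x)) := by
      refine dvd_trans ?_ (Cfsg.Agent.H901.SaxSp.card_dvd_pre _)
      rw [Nat.card_zpowers, hx]
    have h1 : pre (Subgroup.zpowers x) ≤ isometryGroup F (⇑Q) :=
      (H262.El.pre_mono (Subgroup.zpowers_le.2 hxM)).trans (pres_iff.1 hMQ)
    have h2 : pre (Subgroup.zpowers x) ≤ isometryGroup F (⇑Q') :=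
      (H262.El.pre_mono (Subgroup.zpowers_le.2 hxM')).trans (pres_iff.1 hMQ')
    obtain ⟨g, hg, hiso, hgr, hg1⟩ := exists_elt h1 hr (by omega) hK
    have hfin := Cfsg.Agent.H901.SaxSp.finrank_sum (F := F) m
    have hcm : finrank F (cm (lin g)) = 2 * m := by
      obtain ⟨k, hk⟩ := hiso.dvd_cm hr
      have h5 : finrank F (cm (lin g)) ≤ finrank F (Fin m ⊕ Fin m → F) := Submodule.finrank_le _
      have h6 : cm (lin g) ≠ ⊥ := cm_ne_bot (lin_ne_one hg1)
      have h7 : finrank F (cm (lin g)) ≠ 0 := fun h => h6 (Submodule.finrank_eq_zero.1 h)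
      rcases Nat.lt_or_ge k 1 with hk0 | hk1
      · have : k = 0 := by omega
        subst this
        omega
      · nlinarith
    have hadd := hiso.finrank_add
    have hfx : fx (lin g) = ⊥ := Submodule.finrank_eq_zero.1 (by omega)
    have hcmt : cm (lin g) = ⊤ := Submodule.eq_top_of_finrank_eq (by rw [hcm, hfin])
    have hQQ : Q = Q' := by
      ext v
      refine quad_eq (fun u w => by rw [hpol, hpol']) (x := lin g) (lin_iso h1 hg) (lin_iso h2 hg) ?_
        (by rw [hfin]; omega) v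
      intro W hW
      rcases hiso.le_or hr hcm hW with h8 | h8
      · left
        rw [hfx] at h8
        exact le_bot_iff.1 h8
      · right
        rw [hcmt] at h8
        exact top_le_iff.1 h8
    subst hQQ
    exact le_antisymm (hmax' _ hMQ) (hmax _ hMQ')
  · intro K hK
    rcases hres K hK with h | ⟨Q, hpol, hKQ⟩
    · exact Or.inl h
    · by_cases hrK : r ∣ Nat.card K
      · right
        have h1 := pres_iff.2 hKQ
        refine ⟨stabT Q, ⟨not_pres_top hm hpol (pres_stabT h1),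
          hrK.trans (Subgroup.card_dvd_of_le (le_stabT h1)), Q, hpol, pres_stabT h1, fun K' hK' =>
          le_stabT hK'⟩, le_stabT h1⟩
      · exact Or.inl (.pgap ⟨r, hr.prime, hrT, hrK⟩)

/-- **`PSp_8(q)`, `q` even**: the groups `O^-_8(q)`. -/
theorem fam_psp8 (heven : ¬ Odd (Fintype.card F))
    (hres : ∀ K : Subgroup (PSp 4 F), K ≠ ⊤ → Kill (PSp 4 F) d K ∨ Cfsg.Agent.H901.SaxSp.InOMinus 4 F (pre K)) :
    ∃ 𝓜, IsFam (PSp 4 F) d 𝓜 := by
  have h2 : CharP F 2 := by
    obtain ⟨p, hp⟩ := CharP.exists F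
    obtain ⟨n, hpp, hn⟩ := FiniteField.card F p
    have hp2 : p = 2 := by
      by_contra hne
      exact heven (by rw [hn]; exact (hpp.odd_of_ne_two hne).pow)
    rwa [hp2] at hp
  have hq := one_lt_q F
  obtain ⟨r, hr⟩ := exists_pp (q := Nat.card F) (e := 2 * 4) (by omega) (by omega) (by omega)
  refine ⟨_, isFam_sp (r := r) (by omega) hr fun K hK => ?_⟩
  rcases hres K hK with h | ⟨-, -, Q, hpol, -, hQ⟩
  · exact Or.inl h
  · exact Or.inr ⟨Q, hpol, hQ⟩

end Sp

end Cfsg.Agent.H327.PF
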